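import Mathlib
import Cfsg.Agent.Lib.Helper6.A7.Defs

/-!
# S0984, package J (helper62 for helper6)

A simple group of order `2520` with a subgroup of index `7` is isomorphic to `A₇`
(the coset action embeds it into `A₇`, and the orders agree).
-/

set_option autoImplicit false

namespace Cfsg.Agent.Lib.Helper62.A7

universe u

theorem card_alt7 : Nat.card (alternatingGroup (Fin 7)) = 2520 := by
  rw [nat_card_alternatingGroup, Nat.card_eq_fintype_card, Fintype.card_fin]
  decide

/-- **Package J.** -/
theorem lemIso : Cfsg.Agent.Lib.Helper6.A7.LemIso.{u} := by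
  intro G _ _ _ hG K hK
  classical
  have : Fintype (G ⧸ K) := Fintype.ofFinite _
  have hcard : Fintype.card (G ⧸ K) = 7 := by
    rw [← hK, Subgroup.index, Nat.card_eq_fintype_card]
  have hKtop : K ≠ ⊤ := by
    intro h
    rw [h, Subgroup.index_top] at hK
    omega
  obtain ⟨e⟩ : Nonempty ((G ⧸ K) ≃ Fin 7) := ⟨Fintype.equivFinOfCardEq hcard⟩
  obtain ⟨φ, hφdef⟩ : ∃ φ : G →* Equiv.Perm (Fin 7),
      φ = (e.permCongrHom).toMonoidHom.comp (MulAction.toPermHom G (G ⧸ K)) := ⟨_, rfl⟩
  have hφ : Function.Injective φ := by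
    rw [← MonoidHom.ker_eq_bot_iff]
    have hker : φ.ker = K.normalCore := by
      rw [Subgroup.normalCore_eq_ker]
      ext g
      rw [hφdef]
      simp only [MonoidHom.mem_ker, MonoidHom.coe_comp, Function.comp_apply]
      exact map_eq_one_iff _ (e.permCongrHom).injective
    rw [hker]
    rcases (K.normalCore_normal).eq_bot_or_eq_top with h | h
    · exact h
    · exact absurd (top_le_iff.mp (h ▸ Subgroup.normalCore_le K)) hKtop
  have hsign : ∀ g, Equiv.Perm.sign (φ g) = 1 := by
    obtain ⟨ψ, hψdef⟩ : ∃ ψ : G →* ℤˣ, ψ = Equiv.Perm.sign.comp φ := ⟨_, rfl⟩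
    rcases (MonoidHom.normal_ker ψ).eq_bot_or_eq_top with h | h
    · exfalso
      have hinj : Function.Injective ψ := (MonoidHom.ker_eq_bot_iff ψ).mp h
      have h1 : Nat.card G ≤ Nat.card ℤˣ := Nat.card_le_card_of_injective ψ hinj
      have h2 : Nat.card ℤˣ = 2 := by
        rw [Nat.card_eq_fintype_card]
        rfl
      omega
    · intro g
      have h1 : g ∈ ψ.ker := h ▸ Subgroup.mem_top g
      rw [MonoidHom.mem_ker, hψdef] at h1
      exact h1
  obtain ⟨f, hfdef⟩ : ∃ f : G →* ↥(alternatingGroup (Fin 7)),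
      f = φ.codRestrict (alternatingGroup (Fin 7))
        (fun g => Equiv.Perm.mem_alternatingGroup.mpr (hsign g)) := ⟨_, rfl⟩
  have hf : Function.Injective f := by
    intro a b hab
    apply hφ
    rw [hfdef] at hab
    have h1 := congrArg Subtype.val hab
    simpa using h1
  have hbij : Function.Bijective f := by
    rw [Nat.bijective_iff_injective_and_card]
    exact ⟨hf, by rw [hG, card_alt7]⟩
  exact ⟨MulEquiv.ofBijective f hbij⟩

end Cfsg.Agent.Lib.Helper62.A7
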