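import Mathlib
import Cfsg.Agent.Lib.Helper6.A7.Defs

/-!
# S0984, package K (helper62 for helper6)

The sums of `χ` over `⟨u⟩` (`u` of order four) and over a group `S ⊇ ⟨u⟩` of order eight, from
the values `χ 1 = 6`, `χ u = χ u⁻¹ = 0`, `χ (u ^ 2) = 2` and `χ = 2` on `S ∖ ⟨u⟩`.
-/

set_option autoImplicit false

namespace Cfsg.Agent.Lib.Helper62.A7

universe u

/-- **Package K.** -/
theorem lemSums : Cfsg.Agent.Lib.Helper6.A7.LemSums.{u} := by
  intro G _ _ χ S u hS huS hu4 h1 hu hu2 hinv hout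
  classical
  have := Fintype.ofFinite G
  obtain ⟨Z, hZdef⟩ : ∃ Z : Finset G, Z = (Finset.range 4).image (fun k : ℕ => u ^ k) :=
    ⟨_, rfl⟩
  have hZset : ∀ g : G, g ∈ Z ↔ g ∈ Subgroup.zpowers u := by
    intro g
    rw [hZdef, ← hu4]
    exact mem_zpowers_iff_mem_range_orderOf.symm
  have hinjOn : Set.InjOn (fun k : ℕ => u ^ k) (Finset.range 4 : Set ℕ) := by
    intro a ha b hb hab
    have ha' : a ∈ Set.Iio (orderOf u) := by
      rw [hu4]
      simpa using ha
    have hb' : b ∈ Set.Iio (orderOf u) := by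
      rw [hu4]
      simpa using hb
    exact pow_injOn_Iio_orderOf ha' hb' hab
  have h4 : u ^ 4 = 1 := by
    rw [← hu4]
    exact pow_orderOf_eq_one u
  have h3 : u ^ 3 = u⁻¹ := by
    apply eq_inv_of_mul_eq_one_left
    rw [← pow_succ]
    exact h4
  have hsumZ : ∑ g ∈ Z, χ g = 8 := by
    rw [hZdef, Finset.sum_image hinjOn]
    rw [Finset.sum_range_succ, Finset.sum_range_succ, Finset.sum_range_succ,
      Finset.sum_range_one]
    rw [pow_zero, pow_one, h3, h1, hu, hu2, hinv, hu]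
    norm_num
  have e1 : ∑ᶠ t : Subgroup.zpowers u, χ (t : G) = ∑ g ∈ Z, χ g := by
    rw [finsum_eq_sum_of_fintype]
    exact (Finset.sum_subtype Z hZset χ).symm
  obtain ⟨T, hTdef⟩ : ∃ T : Finset G, T = Finset.univ.filter (fun g => g ∈ S) := ⟨_, rfl⟩
  have hTset : ∀ g : G, g ∈ T ↔ g ∈ S := by
    intro g
    rw [hTdef]
    simp
  have e2 : ∑ᶠ s : S, χ (s : G) = ∑ g ∈ T, χ g := by
    rw [finsum_eq_sum_of_fintype]
    exact (Finset.sum_subtype T hTset χ).symm
  have hZT : Z ⊆ T := by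
    intro g hg
    rw [hTset]
    rw [hZset] at hg
    exact (Subgroup.zpowers_le.mpr huS) hg
  have hcardZ : Z.card = 4 := by
    rw [hZdef, Finset.card_image_of_injOn hinjOn, Finset.card_range]
  have hcardT : T.card = 8 := by
    rw [hTdef, ← Fintype.card_subtype, ← Nat.card_eq_fintype_card]
    exact hS
  have hsumTZ : ∑ g ∈ T \ Z, χ g = 8 := by
    have h5 : ∀ g ∈ T \ Z, χ g = 2 := by
      intro g hg
      rw [Finset.mem_sdiff] at hg
      apply hout g ((hTset g).mp hg.1)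
      intro hgz
      exact hg.2 ((hZset g).mpr hgz)
    rw [Finset.sum_congr rfl h5, Finset.sum_const, Finset.card_sdiff_of_subset hZT, hcardT,
      hcardZ]
    norm_num
  refine ⟨by rw [e1, hsumZ], ?_⟩
  rw [e2, ← Finset.sum_sdiff hZT, hsumTZ, hsumZ]
  norm_num

end Cfsg.Agent.Lib.Helper62.A7
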